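import Cfsg.Agent.H891.Gen.Defs
import Cfsg.Agent.H391.PslRow
import Cfsg.Agent.ClassicalGeometry.AutPSL.Main

/-!
# TEAM GEN, row `PSL_d(q)`, `d ≥ 3` (helper230)

A 2-transitive group with socle `T ≅ PSL_d(q)` and degree `(q^d - 1)/(q - 1)` is 2-generated, provided that the
pairs `(lift (cj A * fld σ), lift (cj B))` lift modulo `Inn PSL_d(q)`.
-/

set_option autoImplicit false

namespace Cfsg.Agent.H230.GenPsl

open Matrix MulAction Cfsg.Agent.H384.TwoTrans Cfsg.Agent.H891.Gen Cfsg.Agent.H440.TwoGen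
open Cfsg.Agent.ClassicalGeometry.AutPSL.Root Cfsg.Agent.ClassicalGeometry.AutPSL.Auto
open Cfsg.Agent.ClassicalGeometry.AutPSL.Main
open scoped LinearAlgebra.Projectivization

universe u v

/-! ### general lemmas -/

/-- Lifting descends along an injective homomorphism. -/
theorem lift_of_map {G X : Type*} [Group G] [Group X] (α : G →* X) (hα : Function.Injective α) {N : Subgroup G}
    {x y : G} (h : Lift (N.map α) (α x) (α y)) : Lift N x y := by
  obtain ⟨_, ⟨s, hs, rfl⟩, _, ⟨t, ht, rfl⟩, h⟩ := h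
  refine ⟨s, hs, t, ht, ?_⟩
  have h1 : (Subgroup.closure ({x * s, y * t} : Set G)).map α =
      Subgroup.closure ({α x * α s, α y * α t} : Set X) := by
    rw [MonoidHom.map_closure, Set.image_pair, map_mul, map_mul]
  rw [← h1] at h
  exact (Subgroup.map_le_map_iff_of_injective hα).1 h

/-- Lifting goes up along a homomorphism. -/
theorem lift_map {G X : Type*} [Group G] [Group X] (α : G →* X) {N : Subgroup G}
    {x y : G} (h : Lift N x y) : Lift (N.map α) (α x) (α y) := by
  obtain ⟨s, hs, t, ht, h⟩ := h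
  refine ⟨α s, ⟨s, hs, rfl⟩, α t, ⟨t, ht, rfl⟩, ?_⟩
  have h1 : (Subgroup.closure ({x * s, y * t} : Set G)).map α =
      Subgroup.closure ({α x * α s, α y * α t} : Set X) := by
    rw [MonoidHom.map_closure, Set.image_pair, map_mul, map_mul]
  rw [← h1]
  exact Subgroup.map_mono h

theorem isCyclic_ringAut (K : Type*) [Field K] [Finite K] : IsCyclic (K ≃+* K) := by
  obtain ⟨p, hp⟩ := CharP.exists K
  have hpp : p.Prime := by
    have hp0 : p ≠ 0 := by
      intro h
      subst h
      have : CharZero K := CharP.charP_to_charZero K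
      exact not_finite K
    exact (CharP.char_is_prime_or_zero K p).resolve_right hp0
  have : Fact p.Prime := ⟨hpp⟩
  let _ := ZMod.algebra K p
  let f : (K ≃ₐ[ZMod p] K) →* (K ≃+* K) :=
    { toFun := fun e => e.toRingEquiv
      map_one' := rfl
      map_mul' := fun _ _ => rfl }
  have hf : Function.Surjective f := by
    intro e
    refine ⟨AlgEquiv.ofRingEquiv (f := e) ?_, ?_⟩
    · intro x
      exact congrArg (fun g : ZMod p →+* K => g x)
        (RingHom.ext_zmod ((e : K →+* K).comp (algebraMap (ZMod p) K)) (algebraMap (ZMod p) K))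
    · ext x; rfl
  exact isCyclic_of_surjective f hf

/-! ### semilinear calculus -/

section Semi

variable {ι F : Type*} [Fintype ι] [DecidableEq ι] [Field F]

theorem fld_mul_cj (σ : F ≃+* F) (B : GL ι F) :
    (fld σ * cj B : MulAut (SpecialLinearGroup ι F)) = cj (GeneralLinearGroup.map (σ : F →+* F) B) * fld σ := by
  apply MulEquiv.ext
  intro s
  apply Subtype.ext
  change ((B : Matrix ι ι F) * s.1 * ((B⁻¹ : GL ι F) : Matrix ι ι F)).map (σ : F →+* F) =
    (B : Matrix ι ι F).map (σ : F →+* F) * (s.1.map (σ : F →+* F)) *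
      (((GeneralLinearGroup.map (σ : F →+* F) B)⁻¹ : GL ι F) : Matrix ι ι F)
  rw [Matrix.map_mul, Matrix.map_mul, ← map_inv]
  rfl

theorem cj_of_det {B : GL ι F} (b : SpecialLinearGroup ι F) (hB : (b : Matrix ι ι F) = B)
    (s : SpecialLinearGroup ι F) : cj B s = b * s * b⁻¹ := by
  have h1 : ((B⁻¹ : GL ι F) : Matrix ι ι F) = (b⁻¹ : SpecialLinearGroup ι F).1 := by
    have h2 : (B : Matrix ι ι F) * (b⁻¹ : SpecialLinearGroup ι F).1 = 1 := by
      rw [← hB]
      exact congrArg Subtype.val (mul_inv_cancel b)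
    have h3 : ((B⁻¹ : GL ι F) : Matrix ι ι F) * (B : Matrix ι ι F) = 1 := by
      rw [← Units.val_mul, inv_mul_cancel, Units.val_one]
    calc ((B⁻¹ : GL ι F) : Matrix ι ι F) = ((B⁻¹ : GL ι F) : Matrix ι ι F) * ((B : Matrix ι ι F) *
        (b⁻¹ : SpecialLinearGroup ι F).1) := by rw [h2, mul_one]
      _ = _ := by rw [← mul_assoc, h3, one_mul]
  apply Subtype.ext
  rw [coe_cj, h1, ← hB]
  rfl

end Semi

/-! ### identification of the socle -/

variable {G : Type u} {Ω : Type v} [Group G] [MulAction G Ω] {T : Subgroup G}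
variable {F : Type} [Field F] {d : ℕ}

theorem ker_eq (A : AS G Ω T) {φ : SpecialLinearGroup (Fin d) F →* ↥T} {f : Ω ≃ ℙ F (Fin d → F)}
    (hf : ∀ (s : SpecialLinearGroup (Fin d) F) (x : Ω), f (φ s • x) = s • f x) :
    φ.ker = Subgroup.center (SpecialLinearGroup (Fin d) F) := by
  have := A.faithful
  rw [← Projectivization.SL_mulAction_ker]
  ext s
  rw [MonoidHom.mem_ker, MonoidHom.mem_ker]
  constructor
  · intro h
    ext1 x
    have h1 := hf s (f.symm x)
    rw [h, one_smul, Equiv.apply_symm_apply] at h1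
    exact h1.symm
  · intro h
    apply Subtype.ext
    apply FaithfulSMul.eq_of_smul_eq_smul (α := Ω)
    intro x
    apply f.injective
    have h1 := hf s x
    have h2 : s • f x = f x := congrArg (fun π : Equiv.Perm (ℙ F (Fin d → F)) => π (f x)) h
    rw [h2] at h1
    rw [OneMemClass.coe_one, one_smul]
    exact h1

/-- `PSL_d(F) ≃* T` -/
noncomputable def eqv (φ : SpecialLinearGroup (Fin d) F →* ↥T)
    (hk : φ.ker = Subgroup.center (SpecialLinearGroup (Fin d) F)) (hφ : Function.Surjective φ) :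
    ProjectiveSpecialLinearGroup (Fin d) F ≃* ↥T :=
  (QuotientGroup.quotientMulEquivOfEq hk.symm).trans (QuotientGroup.quotientKerEquivOfSurjective φ hφ)

theorem eqv_pr (φ : SpecialLinearGroup (Fin d) F →* ↥T)
    (hk : φ.ker = Subgroup.center (SpecialLinearGroup (Fin d) F)) (hφ : Function.Surjective φ)
    (s : SpecialLinearGroup (Fin d) F) : eqv φ hk hφ (pr s) = φ s := rfl

/-- the action of `G` on `PSL_d(F) ≅ T` -/
noncomputable def act [T.Normal] (e : ProjectiveSpecialLinearGroup (Fin d) F ≃* ↥T) :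
    G →* MulAut (ProjectiveSpecialLinearGroup (Fin d) F) :=
  (MulAut.congr e.symm).toMonoidHom.comp MulAut.conjNormal

theorem e_act [T.Normal] (e : ProjectiveSpecialLinearGroup (Fin d) F ≃* ↥T) (g : G)
    (p : ProjectiveSpecialLinearGroup (Fin d) F) : (e (act e g p) : G) = g * (e p : G) * g⁻¹ := by
  have h1 : e (act e g p) = MulAut.conjNormal g (e p) := by
    change e (e.symm (MulAut.conjNormal g (e p))) = _
    rw [e.apply_symm_apply]
  rw [h1]
  rfl

theorem act_injective [T.Normal] (hc : Subgroup.centralizer (T : Set G) = ⊥)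
    (e : ProjectiveSpecialLinearGroup (Fin d) F ≃* ↥T) : Function.Injective (act e) := by
  rw [injective_iff_map_eq_one]
  intro g hg
  have h1 : g ∈ Subgroup.centralizer (T : Set G) := by
    rw [Subgroup.mem_centralizer_iff]
    intro t ht
    have h2 := e_act e g (e.symm ⟨t, ht⟩)
    rw [hg, MulAut.one_apply, e.apply_symm_apply] at h2
    calc t * g = (g * t * g⁻¹) * g := by rw [← h2]
      _ = g * t := by group
  rw [hc] at h1
  exact Subgroup.mem_bot.1 h1

theorem map_act [T.Normal] (e : ProjectiveSpecialLinearGroup (Fin d) F ≃* ↥T) :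
    T.map (act e) = (MulAut.conj : ProjectiveSpecialLinearGroup (Fin d) F →* _).range := by
  have h1 : ∀ t : ↥T, act e (t : G) = MulAut.conj (e.symm t) := by
    intro t
    apply MulEquiv.ext
    intro p
    apply e.injective
    apply Subtype.ext
    rw [e_act, MulAut.conj_apply, map_mul, map_mul, map_inv, e.apply_symm_apply]
    rfl
  ext x
  constructor
  · rintro ⟨t, ht, rfl⟩
    exact ⟨e.symm ⟨t, ht⟩, (h1 ⟨t, ht⟩).symm⟩
  · rintro ⟨p, rfl⟩
    refine ⟨e p, (e p).2, ?_⟩
    rw [h1, e.symm_apply_apply]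

/-- A graph automorphism does not preserve the stabilisers of the points. -/
theorem no_graph (hd : 3 ≤ d) {A : GL (Fin d) F} {σ : F ≃+* F} {i₀ : Fin d} {q : ℙ F (Fin d → F)}
    (h : ∀ s : SpecialLinearGroup (Fin d) F,
      s • (Projectivization.mk F (Pi.single i₀ (1 : F) : Fin d → F) (by simp)) =
        Projectivization.mk F (Pi.single i₀ (1 : F) : Fin d → F) (by simp) →
      ((cj A * fld σ * itr : MulAut (SpecialLinearGroup (Fin d) F)) s) • q = q) : False := by
  classical
  induction q using Projectivization.ind with | _ v hv =>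
  set w : Fin d → F := ((A⁻¹ : GL (Fin d) F) : Matrix (Fin d) (Fin d) F) *ᵥ v with hw
  have hAw : (A : Matrix (Fin d) (Fin d) F) *ᵥ w = v := by
    rw [hw, mulVec_mulVec, ← Units.val_mul, mul_inv_cancel, Units.val_one, one_mulVec]
  have hw0 : w ≠ 0 := by
    intro h0
    rw [h0, mulVec_zero] at hAw
    exact hv hAw.symm
  -- the transvections
  have key : ∀ i j : Fin d, i ≠ j → j ≠ i₀ → ∃ c : F, w - w i • Pi.single j 1 = c • w := by
    intro i j hij hj
    have h1 := h (SpecialLinearGroup.transvection hij 1) (by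
      rw [Projectivization.smul_mk, Projectivization.mk_eq_mk_iff']
      refine ⟨1, ?_⟩
      rw [one_smul]
      change (Pi.single i₀ (1 : F) : Fin d → F) = (1 + single i j 1) *ᵥ _
      rw [add_mulVec, one_mulVec]
      ext k
      simp [Pi.single_apply, hj])
    rw [MulAut.mul_apply, itr_transvection, MulAut.mul_apply, fld_transvection, Projectivization.smul_mk,
      Projectivization.mk_eq_mk_iff'] at h1
    obtain ⟨c, hc⟩ := h1
    refine ⟨c, ?_⟩
    have h2 : (cj A (SpecialLinearGroup.transvection hij.symm (σ (-1)))) • v =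
        (A : Matrix (Fin d) (Fin d) F) *ᵥ (w - w i • Pi.single j 1) := by
      change ((A : Matrix (Fin d) (Fin d) F) * (1 + single j i (σ (-1))) *
        ((A⁻¹ : GL (Fin d) F) : Matrix (Fin d) (Fin d) F)) *ᵥ v = _
      rw [← mulVec_mulVec, ← hw, ← mulVec_mulVec, add_mulVec, one_mulVec, map_neg, map_one]
      congr 1
      ext k
      simp [Matrix.mulVec, dotProduct, single_apply, Pi.single_apply, sub_eq_add_neg]
      by_cases hk : k = j
      · subst hk
        simp
      · simp [hk, Ne.symm hk]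
    rw [h2, ← hAw, ← mulVec_smul] at hc
    have h3 := congrArg (fun x => ((A⁻¹ : GL (Fin d) F) : Matrix (Fin d) (Fin d) F) *ᵥ x) hc
    simp only [mulVec_mulVec, ← Units.val_mul, inv_mul_cancel, Units.val_one, one_mulVec] at h3
    exact h3.symm
  obtain ⟨i, hi⟩ : ∃ i, w i ≠ 0 := by
    by_contra hcon
    push Not at hcon
    exact hw0 (funext hcon)
  obtain ⟨j, hji, hj⟩ : ∃ j : Fin d, j ≠ i ∧ j ≠ i₀ := by
    by_contra hno
    push Not at hno
    have h1 : (Finset.univ : Finset (Fin d)) ⊆ {i, i₀} := by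
      intro k _
      rw [Finset.mem_insert, Finset.mem_singleton]
      by_cases hk : k = i
      · exact Or.inl hk
      · exact Or.inr (hno k hk)
    have h2 := Finset.card_le_card h1
    have h3 := Finset.card_le_two (a := i) (b := i₀)
    rw [Finset.card_univ, Fintype.card_fin] at h2
    omega
  obtain ⟨c, hc⟩ := key i j hji.symm hj
  have h1 := congrFun hc i
  have h2 := congrFun hc j
  simp only [Pi.sub_apply, Pi.smul_apply, smul_eq_mul, Pi.single_apply, if_neg hji.symm, mul_zero, sub_zero,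
    if_true, mul_one] at h1 h2
  have hc1 : c = 1 := by
    have : (c - 1) * w i = 0 := by linear_combination -h1
    rcases mul_eq_zero.1 this with h | h
    · linear_combination h
    · exact absurd h hi
  rw [hc1, one_mul] at h2
  apply hi
  linear_combination -h2

/-- Every element of `G` acts on the socle as a semilinear map. -/
theorem exists_semi [Fintype F] [T.Normal] (hd : 3 ≤ d) {φ : SpecialLinearGroup (Fin d) F →* ↥T}
    {f : Ω ≃ ℙ F (Fin d → F)} (hk : φ.ker = Subgroup.center (SpecialLinearGroup (Fin d) F))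
    (hφ : Function.Surjective φ)
    (hf : ∀ (s : SpecialLinearGroup (Fin d) F) (x : Ω), f (φ s • x) = s • f x) (g : G) :
    ∃ (B : GL (Fin d) F) (σ : F ≃+* F), act (eqv φ hk hφ) g = lift (cj B * fld σ) := by
  obtain ⟨p, hp⟩ := CharP.exists F
  have : Fact p.Prime := ⟨CharP.char_is_prime F p⟩
  rcases surj_three p hd (act (eqv φ hk hφ) g) with h | ⟨B, σ, h⟩
  · exact h
  · exfalso
    let i₀ : Fin d := ⟨0, by omega⟩
    let p₀ : ℙ F (Fin d → F) := Projectivization.mk F (Pi.single i₀ (1 : F) : Fin d → F) (by simp)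
    refine no_graph hd (A := B) (σ := σ) (i₀ := i₀) (q := f (g • f.symm p₀)) ?_
    intro s hs
    have h1 : φ s • f.symm p₀ = f.symm p₀ := by
      apply f.injective
      rw [hf, Equiv.apply_symm_apply]
      exact hs
    have h2 := e_act (eqv φ hk hφ) g (pr s)
    rw [h, lift_pr, eqv_pr, eqv_pr] at h2
    rw [← hf]
    congr 1
    change (φ ((cj B * fld σ * itr : MulAut (SpecialLinearGroup (Fin d) F)) s) : G) • (g • f.symm p₀) = _
    rw [h2, mul_smul, mul_smul, inv_smul_smul]
    congr 1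

/-- the pairs of semilinear automorphisms lift modulo `Inn PSL_d(F)` -/
def LiftPSL (F : Type) [Field F] (d : ℕ) : Prop :=
  ∀ (A B : GL (Fin d) F) (σ : F ≃+* F),
    Lift (MulAut.conj : ProjectiveSpecialLinearGroup (Fin d) F →* _).range (lift (cj A * fld σ)) (lift (cj B))

theorem lift_cj_toGL (s : SpecialLinearGroup (Fin d) F) :
    (lift (cj (SpecialLinearGroup.toGL s)) : MulAut (ProjectiveSpecialLinearGroup (Fin d) F)) =
      MulAut.conj (pr s) := by
  apply MulEquiv.ext
  intro x
  obtain ⟨x, rfl⟩ := pr_surjective x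
  rw [lift_pr, MulAut.conj_apply, cj_of_det s rfl]
  rfl

/-- The lift for `PSL_(n+1)` from the lift of helper99. -/
theorem liftPSL_of_gl {n : ℕ} (H : ∀ (j : GL (Fin (n + 2)) F →* MulAut (ProjectiveSpecialLinearGroup (Fin (n + 2)) F))
    (σ : F ≃+* F) (f : MulAut (ProjectiveSpecialLinearGroup (Fin (n + 2)) F)),
      (∀ A, f * j A * f⁻¹ = j (GeneralLinearGroup.map (σ : F →+* F) A)) →
      (∀ (h : (0 : Fin (n + 2)) ≠ 1) (s : F), j (SpecialLinearGroup.toGL (SpecialLinearGroup.transvection h s)) = 1 →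
        s = 0) →
      ∀ A B : GL (Fin (n + 2)) F, Lift (j.comp SpecialLinearGroup.toGL).range (j A) (j B * f)) :
    LiftPSL F (n + 2) := by
  intro A B σ
  have h1 := H (lift.comp cj) σ (lift (fld σ)) (by
      intro A
      rw [mul_inv_eq_iff_eq_mul]
      change lift (fld σ) * lift (cj A) = lift (cj _) * lift (fld σ)
      rw [← map_mul, ← map_mul, fld_mul_cj]) (by
      intro h s hs
      have h2 : lift (cj (SpecialLinearGroup.toGL (SpecialLinearGroup.transvection h s)) * fld (1 : F ≃+* F)) =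
          lift (fld (1 : F ≃+* F)) := by
        rw [map_mul]
        change (lift.comp cj) _ * _ = _
        rw [hs, one_mul]
      obtain ⟨⟨r, hr⟩, -⟩ := injective_aux h2
      have h3 := congrFun (congrFun hr 0) 1
      have h4 : (SpecialLinearGroup.toGL (SpecialLinearGroup.transvection h s) :
          Matrix (Fin (n + 2)) (Fin (n + 2)) F) =
          (1 : Matrix (Fin (n + 2)) (Fin (n + 2)) F) + Matrix.single 0 1 s := rfl
      rw [h4] at h3
      simpa using h3.symm) B A
  have h2 : ((lift.comp cj).comp SpecialLinearGroup.toGL).range =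
      (MulAut.conj : ProjectiveSpecialLinearGroup (Fin (n + 2)) F →* _).range := by
    ext x
    constructor
    · rintro ⟨s, rfl⟩
      exact ⟨pr s, (lift_cj_toGL s).symm⟩
    · rintro ⟨p, rfl⟩
      obtain ⟨s, rfl⟩ := pr_surjective p
      exact ⟨s, lift_cj_toGL s⟩
  rw [h2] at h1
  have h3 := h1.symm
  change Lift _ (lift (cj A) * lift (fld σ)) (lift (cj B)) at h3
  rwa [← map_mul] at h3

/-- An element inducing `lift (cj B)` with `det B = 1` lies in the socle. -/
theorem mem_of_det [T.Normal] (hc : Subgroup.centralizer (T : Set G) = ⊥)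
    (e : ProjectiveSpecialLinearGroup (Fin d) F ≃* ↥T) {g : G} {B : GL (Fin d) F}
    (h : act e g = lift (cj B)) (hB : (B : Matrix (Fin d) (Fin d) F).det = 1) : g ∈ T := by
  have h1 : act e g ∈ T.map (act e) := by
    rw [map_act, h]
    refine ⟨pr ⟨B, hB⟩, ?_⟩
    apply MulEquiv.ext
    intro x
    obtain ⟨x, rfl⟩ := pr_surjective x
    rw [lift_pr, MulAut.conj_apply, cj_of_det (⟨B, hB⟩ : SpecialLinearGroup (Fin d) F) rfl]
    rfl
  obtain ⟨t, ht, h2⟩ := h1
  rwa [← act_injective hc e h2]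

/-- **Row `PSL_d(q)`, `d ≥ 3`** (TEAM GEN G). -/
theorem psl [Fintype F] (A : AS G Ω T) (hd : 3 ≤ d)
    (he : Nonempty (↥T ≃* ProjectiveSpecialLinearGroup (Fin d) F))
    (hn : Nat.card Ω * (Fintype.card F - 1) = Fintype.card F ^ d - 1) (hL : LiftPSL F d) : TwoGen G := by
  classical
  have := A.normal
  obtain ⟨φ, f, hφ, hf⟩ := Cfsg.Agent.H391.PslRow.ident A (by omega) he hn
  have hk := ker_eq A hf
  set e := eqv φ hk hφ with hedef
  have hsemi := exists_semi hd hk hφ hf
  rw [← hedef] at hsemi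
  have hinj := act_injective A.cent e
  have hmul : ∀ (B B' : GL (Fin d) F) (σ σ' : F ≃+* F),
      (lift (cj B * fld σ) * lift (cj B' * fld σ') : MulAut (ProjectiveSpecialLinearGroup (Fin d) F)) =
        lift (cj (B * GeneralLinearGroup.map (σ : F →+* F) B') * fld (σ * σ')) := by
    intro B B' σ σ'
    rw [← map_mul]
    congr 1
    calc (cj B * fld σ) * (cj B' * fld σ') = cj B * (fld σ * cj B') * fld σ' := by simp only [mul_assoc]
      _ = cj (B * GeneralLinearGroup.map (σ : F →+* F) B') * fld (σ * σ') := by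
        rw [fld_mul_cj, map_mul, map_mul]; simp only [mul_assoc]
  have hone : (1 : MulAut (ProjectiveSpecialLinearGroup (Fin d) F)) = lift (cj 1 * fld 1) := by
    rw [map_one, map_one, mul_one, map_one]
  have hfinv : ∀ (B : GL (Fin d) F) (σ : F ≃+* F), ∃ B' : GL (Fin d) F,
      (lift (cj B * fld σ))⁻¹ = (lift (cj B' * fld σ⁻¹) : MulAut (ProjectiveSpecialLinearGroup (Fin d) F)) := by
    intro B σ
    refine ⟨GeneralLinearGroup.map ((σ⁻¹ : F ≃+* F) : F →+* F) B⁻¹, ?_⟩
    have h1 : GeneralLinearGroup.map (σ : F →+* F)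
        (GeneralLinearGroup.map ((σ⁻¹ : F ≃+* F) : F →+* F) B⁻¹) = B⁻¹ := by
      apply Units.ext
      ext i j
      exact σ.apply_symm_apply _
    rw [inv_eq_iff_mul_eq_one, hmul, hone, h1, mul_inv_cancel, mul_inv_cancel]
  -- the field automorphisms which occur
  let S : Subgroup (F ≃+* F) :=
    { carrier := {σ | ∃ (g : G) (B : GL (Fin d) F), act e g = lift (cj B * fld σ)}
      one_mem' := ⟨1, 1, by rw [map_one, hone]⟩
      mul_mem' := by
        rintro σ σ' ⟨g, B, h⟩ ⟨g', B', h'⟩
        exact ⟨g * g', _, by rw [map_mul, h, h', hmul]⟩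
      inv_mem' := by
        rintro σ ⟨g, B, h⟩
        obtain ⟨B', hB'⟩ := hfinv B σ
        exact ⟨g⁻¹, B', by rw [map_inv, h, hB']⟩ }
  -- the determinants which occur
  let D : Subgroup Fˣ :=
    { carrier := {δ | ∃ (g : G) (B : GL (Fin d) F), act e g = lift (cj B) ∧ GeneralLinearGroup.det B = δ}
      one_mem' := ⟨1, 1, by rw [map_one, map_one, map_one], map_one _⟩
      mul_mem' := by
        rintro δ δ' ⟨g, B, h, hB⟩ ⟨g', B', h', hB'⟩
        exact ⟨g * g', B * B', by rw [map_mul, map_mul, map_mul, h, h'], by rw [map_mul, hB, hB']⟩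
      inv_mem' := by
        rintro δ ⟨g, B, h, hB⟩
        exact ⟨g⁻¹, B⁻¹, by rw [map_inv, map_inv, map_inv, h], by rw [map_inv, hB]⟩ }
  have := isCyclic_ringAut F
  obtain ⟨⟨σ₀, hσ₀⟩, hσ⟩ := IsCyclic.exists_generator (α := ↥S)
  obtain ⟨⟨δ₀, hδ₀⟩, hδ⟩ := IsCyclic.exists_generator (α := ↥D)
  obtain ⟨x, B₁, hx⟩ := hσ₀
  obtain ⟨y, B₂, hy, hB₂⟩ := hδ₀
  refine twoGen_of_lift (N := T) (x := x) (y := y) ?_ ?_
  · rw [Subgroup.eq_top_iff']
    intro g
    obtain ⟨B, σ, hg⟩ := hsemi g
    obtain ⟨k, hk'⟩ := hσ ⟨σ, ⟨g, B, hg⟩⟩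
    have hk2 : σ₀ ^ k = σ := congrArg Subtype.val hk'
    -- powers of `x`
    have hxk : ∀ k : ℤ, ∃ C : GL (Fin d) F, act e (x ^ k) = lift (cj C * fld (σ₀ ^ k)) := by
      intro k
      induction k using Int.induction_on with
      | zero => exact ⟨1, by rw [zpow_zero, zpow_zero, map_one, hone]⟩
      | succ i ih =>
        obtain ⟨C, hC⟩ := ih
        exact ⟨_, by rw [_root_.zpow_add_one, _root_.zpow_add_one, map_mul, hC, hx, hmul]⟩
      | pred i ih =>
        obtain ⟨C, hC⟩ := ih
        obtain ⟨B', hB'⟩ := hfinv B₁ σ₀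
        exact ⟨_, by rw [_root_.zpow_sub_one, _root_.zpow_sub_one, map_mul, map_inv, hC, hx, hB', hmul]⟩
    obtain ⟨C, hC⟩ := hxk k
    rw [hk2] at hC
    obtain ⟨C', hC'⟩ := hfinv C σ
    have h3 : ∃ E : GL (Fin d) F, act e (g * (x ^ k)⁻¹) = lift (cj E) := by
      refine ⟨B * GeneralLinearGroup.map (σ : F →+* F) C', ?_⟩
      rw [map_mul, map_inv, hg, hC, hC', hmul, mul_inv_cancel, map_one, mul_one]
    obtain ⟨E, hE⟩ := h3
    obtain ⟨m, hm⟩ := hδ ⟨GeneralLinearGroup.det E, ⟨_, E, hE, rfl⟩⟩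
    have hm2 : δ₀ ^ m = GeneralLinearGroup.det E := congrArg Subtype.val hm
    have h4 : act e (g * (x ^ k)⁻¹ * (y ^ m)⁻¹) = lift (cj (E * (B₂ ^ m)⁻¹)) := by
      rw [map_mul, hE, map_inv, map_zpow, hy, map_mul, map_mul, map_inv, map_inv, map_zpow, map_zpow]
    have h5 : g * (x ^ k)⁻¹ * (y ^ m)⁻¹ ∈ T := by
      refine mem_of_det A.cent e h4 ?_
      have h6 : GeneralLinearGroup.det (E * (B₂ ^ m)⁻¹) = 1 := by
        rw [map_mul, map_inv, map_zpow, hB₂, hm2, mul_inv_cancel]
      exact congrArg Units.val h6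
    have h7 : g = (g * (x ^ k)⁻¹ * (y ^ m)⁻¹) * (y ^ m * x ^ k) := by group
    rw [h7]
    have hxc : x ∈ Subgroup.closure ({x, y} : Set G) := Subgroup.subset_closure (by simp)
    have hyc : y ∈ Subgroup.closure ({x, y} : Set G) := Subgroup.subset_closure (by simp)
    exact mul_mem (Subgroup.mem_sup_right h5) (Subgroup.mem_sup_left
      (mul_mem (zpow_mem hyc _) (zpow_mem hxc _)))
  · apply lift_of_map (act e) hinj
    rw [map_act, hx, hy]
    exact hL B₁ B₂ σ₀

/-- The row in the form of `ASRows.psl`. -/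
theorem psl_row (hL : ∀ (F : Type) [Field F] [Fintype F] (d : ℕ), 3 ≤ d → LiftPSL F d) :
    ∀ (G : Type u) (Ω : Type v) [Group G] [MulAction G Ω] (T : Subgroup G), AS G Ω T →
      ∀ (F : Type) [Field F] [Fintype F] (d : ℕ), 3 ≤ d →
        Nonempty (↥T ≃* Matrix.ProjectiveSpecialLinearGroup (Fin d) F) →
        Nat.card Ω * (Fintype.card F - 1) = Fintype.card F ^ d - 1 → TwoGen G := by
  intro G Ω _ _ T A F _ _ d hd he hn
  exact psl A hd he hn (hL F d hd)

end Cfsg.Agent.H230.GenPsl
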